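import Mathlib

/-!
# Arithmetic for `PSL₃(q)`
-/

set_option autoImplicit false

namespace Cfsg.Agent.H363.ArithL3

theorem gcd_three (x : ℕ) : Nat.gcd 3 x = 1 ∨ Nat.gcd 3 x = 3 :=
  (Nat.dvd_prime Nat.prime_three).mp (Nat.gcd_dvd_left 3 x)

/-- `t` odd. -/
theorem odd_case {q c m T : ℕ} (hq : 2 ≤ q) (hc : c = Nat.gcd 3 (q - 1))
    (hm : c * m = q ^ 2 + q + 1) (hT : m ∣ T - 1) (hT1 : 1 < T)
    (h : T ∣ q + 1 ∨ T ∣ (q - 1) ^ 2) : False := by
  obtain ⟨j, rfl⟩ : ∃ j, q = j + 1 := ⟨q - 1, by omega⟩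
  rw [Nat.add_sub_cancel] at hc h
  have hmT' : m ≤ T - 1 := Nat.le_of_dvd (by omega) hT
  have hmT : m + 1 ≤ T := by omega
  have hc13 := gcd_three j
  rw [← hc] at hc13
  have hm0 : 0 < m := by
    rcases Nat.eq_zero_or_pos m with h0 | h0
    · rw [h0] at hm; nlinarith
    · exact h0
  rcases h with h | h
  · have h1 := Nat.le_of_dvd (by omega) h
    rcases hc13 with h2 | h2
    · rw [h2] at hm; nlinarith
    · rw [h2] at hm; nlinarith
  · have hj : 1 ≤ j := by omega
    obtain ⟨u, hu⟩ := h
    rcases hc13 with h2 | h2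
    · rw [h2] at hm
      have h3 : T ≤ j ^ 2 := Nat.le_of_dvd (by positivity) ⟨u, hu⟩
      nlinarith
    · have h3j : 3 ∣ j := by
        rw [h2] at hc
        have := Nat.gcd_dvd_right 3 j
        rwa [← hc] at this
      rw [h2] at hm
      have hu3 : u < 3 := by
        by_contra hcon
        have : T * 3 ≤ T * u := Nat.mul_le_mul_left T (by omega)
        have h5 : 3 * m + 3 ≤ 3 * T := by omega
        nlinarith
      have hu0 : u ≠ 0 := by
        rintro rfl
        have : 0 < j ^ 2 := by positivity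
        omega
      rcases (show u = 1 ∨ u = 2 by omega) with h6 | h6
      · rw [h6, mul_one] at hu
        -- T = j^2, m ∣ j^2 - 1
        have h7 : m ∣ (3 * m) - (T - 1) := Nat.dvd_sub (dvd_mul_left m 3) hT
        have h8 : 3 * m - (T - 1) = 3 * j + 4 := by
          rw [hm, ← hu]
          have : (j + 1) ^ 2 + (j + 1) + 1 = (j ^ 2 - 1) + (3 * j + 4) := by
            have : 0 < j ^ 2 := by positivity
            have e : (j + 1) ^ 2 + (j + 1) + 1 = j ^ 2 + 3 * j + 3 := by ring
            omega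
          omega
        exfalso
        rw [h8] at h7
        have h9 := Nat.le_of_dvd (by omega) h7
        have h10 : j ≤ 9 := by nlinarith
        obtain ⟨i, rfl⟩ := h3j
        have : i ≤ 3 := by omega
        interval_cases i
        · omega
        · have : m = 7 := by omega
          subst this
          omega
        · have : m = 19 := by omega
          subst this
          omega
        · have : m = 37 := by omega
          subst this
          omega
      · rw [h6] at hu
        have h7 : m ∣ (3 * m) - (2 * (T - 1)) :=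
          Nat.dvd_sub (dvd_mul_left m 3) (hT.mul_left 2)
        have h8 : 3 * m - 2 * (T - 1) = 3 * j + 5 := by
          rw [hm]
          have e : (j + 1) ^ 2 + (j + 1) + 1 = j ^ 2 + 3 * j + 3 := by ring
          omega
        exfalso
        rw [h8] at h7
        have h9 := Nat.le_of_dvd (by omega) h7
        have h10 : j ≤ 9 := by nlinarith
        obtain ⟨i, rfl⟩ := h3j
        have : i ≤ 3 := by omega
        interval_cases i
        · omega
        · omega
        · have h11 : m = 19 := by omega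
          subst h11
          omega
        · have h11 : m = 37 := by omega
          subst h11
          omega

/-- `t = 2`. -/
theorem two_case {q c m a : ℕ} (hq : 2 ≤ q) (hc : c = Nat.gcd 3 (q - 1))
    (hm : c * m = q ^ 2 + q + 1) (hT : m ∣ 2 ^ a - 1) (hT1 : 1 < 2 ^ a)
    (h : 2 ^ a ∣ (q + 1) * (q - 1) ^ 2) : q = 5 ∧ a = 5 := by
  obtain ⟨j, rfl⟩ : ∃ j, q = j + 1 := ⟨q - 1, by omega⟩
  rw [Nat.add_sub_cancel] at hc h
  have hmT : m ≤ 2 ^ a - 1 := Nat.le_of_dvd (by omega) hT
  have hc13 := gcd_three j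
  rw [← hc] at hc13
  have hcle : c ≤ 3 := by rcases hc13 with h | h <;> omega
  have hbound : (j + 1) ^ 2 + (j + 1) + 1 ≤ 3 * (2 ^ a - 1) := by
    rw [← hm]; exact Nat.mul_le_mul hcle hmT
  have ha0 : a ≠ 0 := by
    rintro rfl
    simp at hT1
  rcases Nat.even_or_odd j with hj | hj
  · -- `q` odd
    obtain ⟨b, w, hw, hbw⟩ := Nat.exists_eq_two_pow_mul_odd (n := j) (by omega)
    have hb0 : b ≠ 0 := by
      rintro rfl
      rw [pow_zero, one_mul] at hbw
      rw [hbw] at hj
      exact (Nat.not_even_iff_odd.mpr hw) hj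
    rcases Nat.lt_or_ge 1 b with hb1 | hb1
    · -- `q = 1 mod 4`
      have h4 : 4 ∣ j := by
        rw [hbw]
        exact Dvd.dvd.mul_right (by
          have : (4 : ℕ) = 2 ^ 2 := rfl
          rw [this]; exact pow_dvd_pow 2 hb1) w
      obtain ⟨i, hi⟩ := h4
      have h1 : 2 ^ a ∣ 2 ^ (2 * b + 1) := by
        have h2 : (j + 1 + 1) * j ^ 2 = 2 ^ (2 * b + 1) * ((2 * i + 1) * w ^ 2) := by
          have : j + 1 + 1 = 2 * (2 * i + 1) := by omega
          rw [this, hbw]; ring
        rw [h2] at h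
        refine Nat.Coprime.dvd_of_dvd_mul_right ?_ h
        apply Nat.Coprime.pow_left
        apply Nat.Coprime.mul_right
        · rw [Nat.coprime_two_left]; exact ⟨i, rfl⟩
        · rw [Nat.coprime_two_left]; exact hw.pow
      have hab : a ≤ 2 * b + 1 := (Nat.pow_dvd_pow_iff_le_right (by norm_num)).mp h1
      have hw1 : w = 1 := by
        by_contra hne
        have hw3 : 3 ≤ w := by
          obtain ⟨v, hv⟩ := hw
          omega
        have h5 : 2 ^ a ≤ 2 ^ (2 * b + 1) := Nat.pow_le_pow_right (by norm_num) hab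
        have h6 : 9 * 2 ^ (2 * b + 1) ≤ 2 * j ^ 2 := by
          have h7 : 2 * j ^ 2 = w ^ 2 * 2 ^ (2 * b + 1) := by rw [hbw]; ring
          rw [h7]
          exact Nat.mul_le_mul_right _ (by nlinarith)
        have h8 : 0 < 2 ^ a := by positivity
        have h9 : 3 * ((j + 1) ^ 2 + (j + 1) + 1) ≤ 9 * 2 ^ a := by omega
        nlinarith
      rw [hw1, mul_one] at hbw
      have hc1 : c = 1 := by
        rw [hc, hbw]
        exact Nat.Coprime.pow_right _ (by norm_num)
      rw [hc1, one_mul] at hm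
      have ha2 : a = 2 * b + 1 := by
        by_contra hne
        have h5 : 2 ^ a ≤ 2 ^ (2 * b) := Nat.pow_le_pow_right (by norm_num) (by omega)
        have h6 : 2 ^ (2 * b) = j ^ 2 := by rw [hbw]; ring
        rw [h6] at h5
        have : m ≤ j ^ 2 - 1 := by omega
        rw [hm] at this
        have e : (j + 1) ^ 2 = j ^ 2 + 2 * j + 1 := by ring
        omega
      have h7 : 2 ^ a = 2 * j ^ 2 := by rw [ha2, hbw]; ring
      rw [h7, hm] at hT
      obtain ⟨v, hv⟩ := hT
      have e : (j + 1) ^ 2 = j ^ 2 + 2 * j + 1 := by ring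
      rw [e] at hv
      have hj4 : 4 ≤ j := by
        rw [hbw]
        calc 4 = 2 ^ 2 := by norm_num
          _ ≤ 2 ^ b := Nat.pow_le_pow_right (by norm_num) hb1
      have hv1 : v = 1 := by
        rcases Nat.lt_or_ge v 2 with h8 | h8
        · have : v ≠ 0 := by
            rintro rfl
            rw [mul_zero] at hv
            nlinarith [Nat.sub_eq_zero_iff_le.mp hv]
          omega
        · exfalso
          have h9 : (j ^ 2 + 2 * j + 1 + (j + 1) + 1) * 2 ≤ (j ^ 2 + 2 * j + 1 + (j + 1) + 1) * v :=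
            Nat.mul_le_mul_left _ h8
          omega
      rw [hv1, mul_one] at hv
      have hj' : j ^ 2 = 3 * j + 4 := by omega
      have hj5 : j = 4 := by nlinarith
      have hb2 : b = 2 := by
        rw [hj5] at hbw
        have : (2 : ℕ) ^ 2 = 2 ^ b := by omega
        exact (Nat.pow_right_injective (le_refl 2) this).symm
      subst hb2
      exact ⟨by omega, by omega⟩
    · -- `q = 3 mod 4`
      exfalso
      have hb : b = 1 := by omega
      rw [hb, pow_one] at hbw
      have h1 : 2 ^ a ∣ 4 * (j + 1 + 1) := by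
        have h2 : (j + 1 + 1) * j ^ 2 = 4 * (j + 1 + 1) * w ^ 2 := by
          rw [hbw]; ring
        rw [h2] at h
        refine Nat.Coprime.dvd_of_dvd_mul_right ?_ h
        apply Nat.Coprime.pow_left
        rw [Nat.coprime_two_left]; exact hw.pow
      have h2 := Nat.le_of_dvd (by omega) h1
      have hj10 : j ≤ 10 := by
        by_contra hcon
        have h11 : 11 ≤ j := by omega
        have h12 : 0 < 2 ^ a := by positivity
        have h13 : (j + 1) ^ 2 + (j + 1) + 1 + 3 ≤ 3 * (4 * (j + 1 + 1)) := by omega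
        nlinarith
      obtain ⟨v, hv⟩ := hw
      have hv2 : v ≤ 2 := by omega
      have ha5 : a ≤ 5 := by
        by_contra hcon
        have : 2 ^ 6 ≤ 2 ^ a := Nat.pow_le_pow_right (by norm_num) (by omega)
        omega
      interval_cases v
      · have : j = 2 := by omega
        subst this
        have hc1 : c = 1 := by rw [hc]; decide
        rw [hc1, one_mul] at hm
        subst hm
        interval_cases a <;> omega
      · have : j = 6 := by omega
        subst this
        have hc1 : c = 3 := by rw [hc]; decide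
        rw [hc1] at hm
        have : m = 19 := by omega
        subst this
        interval_cases a <;> omega
      · have : j = 10 := by omega
        subst this
        have hc1 : c = 1 := by rw [hc]; decide
        rw [hc1, one_mul] at hm
        subst hm
        interval_cases a <;> omega
  · -- `q` even
    exfalso
    have h1 : Odd ((j + 1 + 1) * j ^ 2) := by
      apply Odd.mul _ hj.pow
      obtain ⟨i, hi⟩ := hj
      exact ⟨i + 1, by omega⟩
    have h2 : 2 ∣ (j + 1 + 1) * j ^ 2 := (dvd_pow_self 2 ha0).trans h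
    exact h1.not_two_dvd_nat h2

/-- The characteristic. -/
theorem char_case {q c m p f a : ℕ} (hp : p.Prime) (hq : q = p ^ f) (hf : f ≠ 0)
    (hc : c = Nat.gcd 3 (q - 1))
    (hm : c * m = q ^ 2 + q + 1) (hT : m ∣ p ^ a - 1) (ha0 : a ≠ 0) (ha : a ≤ 3 * f) :
    a = 3 * f ∨ (q = 4 ∧ p ^ a = 8) := by
  have hq2 : 2 ≤ q := by
    rw [hq]
    calc 2 ≤ p := hp.two_le
      _ = p ^ 1 := (pow_one p).symm
      _ ≤ p ^ f := Nat.pow_le_pow_right hp.pos (Nat.pos_of_ne_zero hf)
  by_cases h3 : a = 3 * f
  · exact Or.inl h3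
  right
  obtain ⟨b, hb⟩ := Nat.exists_eq_add_of_le ha
  have hb0 : b ≠ 0 := by omega
  have hprod : p ^ a * p ^ b = q ^ 3 := by
    rw [← pow_add, ← hb, hq, ← pow_mul, mul_comm]
  have hA : 2 ≤ p ^ a := by
    calc 2 ≤ p := hp.two_le
      _ = p ^ 1 := (pow_one p).symm
      _ ≤ p ^ a := Nat.pow_le_pow_right hp.pos (Nat.pos_of_ne_zero ha0)
  have hB : 2 ≤ p ^ b := by
    calc 2 ≤ p := hp.two_le
      _ = p ^ 1 := (pow_one p).symm
      _ ≤ p ^ b := Nat.pow_le_pow_right hp.pos (Nat.pos_of_ne_zero hb0)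
  have hc13 := gcd_three (q - 1)
  rw [← hc] at hc13
  -- `m ∣ q ^ 3 - 1`
  have hmq : m ∣ q ^ 3 - 1 := by
    have h1 : m ∣ q ^ 2 + q + 1 := ⟨c, by rw [← hm]; ring⟩
    obtain ⟨j, rfl⟩ : ∃ j, q = j + 1 := ⟨q - 1, by omega⟩
    have h2 : (j + 1) ^ 3 - 1 = j * ((j + 1) ^ 2 + (j + 1) + 1) := by
      have : (j + 1) ^ 3 = j * ((j + 1) ^ 2 + (j + 1) + 1) + 1 := by ring
      omega
    rw [h2]
    exact h1.mul_left j
  have hmB : m ∣ p ^ b - 1 := by
    have h1 : q ^ 3 - 1 = p ^ b * (p ^ a - 1) + (p ^ b - 1) := by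
      rw [Nat.mul_sub, mul_one, mul_comm, hprod]
      have : p ^ b ≤ q ^ 3 := by rw [← hprod]; nlinarith
      omega
    rw [h1] at hmq
    exact (Nat.dvd_add_right (hT.mul_left _)).mp hmq
  have h1 := Nat.le_of_dvd (by omega) hT
  have h2 := Nat.le_of_dvd (by omega) hmB
  have h4 : (m + 1) * (m + 1) ≤ q ^ 3 := by
    rw [← hprod]; exact Nat.mul_le_mul (by omega) (by omega)
  rcases hc13 with h5 | h5
  · exfalso
    rw [h5, one_mul] at hm
    rw [hm] at h4
    nlinarith [sq_nonneg q]
  · rw [h5] at hm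
    have h6 : (q ^ 2 + q + 4) * (q ^ 2 + q + 4) ≤ 9 * q ^ 3 := by
      have : q ^ 2 + q + 4 = 3 * (m + 1) := by omega
      rw [this]; nlinarith
    have h7 : q ≤ 6 := by
      by_contra hcon
      have : 7 ≤ q := by omega
      nlinarith [Nat.pow_le_pow_left this 2, Nat.pow_le_pow_left this 3]
    have h3q : 3 ∣ q - 1 := by
      rw [h5] at hc
      have := Nat.gcd_dvd_right 3 (q - 1)
      rwa [← hc] at this
    have hq4 : q = 4 := by omega
    refine ⟨hq4, ?_⟩
    rw [hq4] at hm hprod
    have hm7 : m = 7 := by omega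
    rw [hm7] at h1 h2
    have h8 : 8 ≤ p ^ a := by omega
    have h9 : 8 ≤ p ^ b := by omega
    nlinarith

end Cfsg.Agent.H363.ArithL3
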