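import Mathlib
import Cfsg.Agent.H363.Frat

/-!
# Groups with two primes not adjacent to `p`: the simple section
-/

set_option autoImplicit false

namespace Cfsg.Agent.H363.Master

open Subgroup Cfsg.Agent.H363.Frat

universe u

theorem exists_minimal_normal (G : Type*) [Group G] [Finite G] [Nontrivial G] : ∃ N : Subgroup G, N.Normal ∧ N ≠ ⊥ ∧
    ∀ M : Subgroup G, M.Normal → M ≤ N → M = ⊥ ∨ M = N := by
  obtain ⟨N, hN⟩ := (Set.toFinite {N : Subgroup G | N.Normal ∧ N ≠ ⊥}).exists_minimal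
    ⟨⊤, inferInstance, top_ne_bot⟩
  refine ⟨N, hN.1.1, hN.1.2, fun M hM hMN => ?_⟩
  by_cases h : M = ⊥
  · exact Or.inl h
  · exact Or.inr (le_antisymm hMN (hN.2 ⟨hM, h⟩ hMN))

/-- The largest normal subgroup of order prime to `m`. -/
theorem exists_core (G : Type*) [Group G] [Finite G] (m : ℕ) : ∃ K : Subgroup G, K.Normal ∧
    (Nat.card K).Coprime m ∧ ∀ L : Subgroup G, L.Normal → (Nat.card L).Coprime m → L ≤ K := by
  obtain ⟨K, hK⟩ := (Set.toFinite {K : Subgroup G | K.Normal ∧ (Nat.card K).Coprime m}).exists_maximal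
    ⟨⊥, inferInstance, by rw [Subgroup.card_bot]; exact Nat.coprime_one_left m⟩
  refine ⟨K, hK.1.1, hK.1.2, fun L hL hLm => ?_⟩
  have := hK.1.1
  have h1 : (K ⊔ L).Normal := inferInstance
  have h2 : Nat.card (K ⊔ L : Subgroup G) ∣ Nat.card K * Nat.card L := by
    have h3 : Nat.card K * K.relIndex (K ⊔ L) = Nat.card (K ⊔ L : Subgroup G) := by
      rw [← Subgroup.relIndex_bot_left K, ← Subgroup.relIndex_bot_left (K ⊔ L)]
      exact Subgroup.relIndex_mul_relIndex _ _ _ bot_le le_sup_left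
    rw [← h3, Subgroup.relIndex_sup_left]
    exact Nat.mul_dvd_mul_left _ (Subgroup.relIndex_dvd_card K L)
  have h4 : (Nat.card (K ⊔ L : Subgroup G)).Coprime m :=
    Nat.Coprime.coprime_dvd_left h2 (Nat.Coprime.mul_left hK.1.2 hLm)
  exact le_trans le_sup_right (hK.2 ⟨h1, h4⟩ le_sup_left)

/-- In the quotient by the core there is no normal subgroup of order prime to `m`. -/
theorem core_quotient {G : Type*} [Group G] [Finite G] {m : ℕ} {K : Subgroup G} [K.Normal]
    (hKm : (Nat.card K).Coprime m) (hmax : ∀ L : Subgroup G, L.Normal → (Nat.card L).Coprime m → L ≤ K)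
    (L : Subgroup (G ⧸ K)) (hL : L.Normal) (hLm : (Nat.card L).Coprime m) : L = ⊥ := by
  have h1 : Nat.card (L.comap (QuotientGroup.mk' K)) = Nat.card K * Nat.card L := by
    have h2 := Subgroup.card_mul_index (L.comap (QuotientGroup.mk' K))
    have h3 := Subgroup.card_mul_index L
    have h4 := Subgroup.card_mul_index K
    rw [Subgroup.index_comap_of_surjective _ (QuotientGroup.mk'_surjective K)] at h2
    rw [Subgroup.index_eq_card K, ← h3] at h4
    have h5 : L.index ≠ 0 := Subgroup.index_ne_zero_of_finite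
    apply Nat.eq_of_mul_eq_mul_right (Nat.pos_of_ne_zero h5)
    rw [h2, ← h4]; ring
  have h2 := hmax _ (hL.comap _) (by rw [h1]; exact Nat.Coprime.mul_left hKm hLm)
  rw [eq_bot_iff]
  intro x hx
  obtain ⟨y, rfl⟩ := QuotientGroup.mk'_surjective K x
  have h3 : y ∈ K := h2 hx
  rw [Subgroup.mem_bot]
  exact (QuotientGroup.eq_one_iff y).2 h3

theorem false_of_subgroups {G : Type*} [Group G] [Finite G] {p s : ℕ} (hp : p.Prime) (hs : s.Prime)
    (hps : p ≠ s) (h : NonAdj G p s) {A B : Subgroup G} (hAB : ∀ a ∈ A, ∀ b ∈ B, Commute a b)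
    (hA : p ∣ Nat.card A) (hB : s ∣ Nat.card B) : False := by
  have : Fact p.Prime := ⟨hp⟩
  have : Fact s.Prime := ⟨hs⟩
  obtain ⟨a, ha⟩ := exists_prime_orderOf_dvd_card' p hA
  obtain ⟨b, hb⟩ := exists_prime_orderOf_dvd_card' s hB
  have h1 : (a : G) = 1 := by
    refine eq_one_of_commute hp hs hps h (x := (a : G)) (y := (b : G)) ⟨1, ?_⟩ ⟨1, ?_⟩ (hAB a a.2 b b.2) ?_
    · rw [pow_one, Subgroup.orderOf_coe, ha]
    · rw [pow_one, Subgroup.orderOf_coe, hb]
    · intro h0
      have : b = 1 := Subtype.ext h0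
      rw [this, orderOf_one] at hb
      exact hs.one_lt.ne hb
  have : a = 1 := Subtype.ext h1
  rw [this, orderOf_one] at ha
  exact hp.one_lt.ne ha

/-- the data of the simple section -/
structure Sect (G : Type u) [Group G] [Finite G] (p r s : ℕ) (K : Subgroup G) [K.Normal]
    (N : Subgroup (G ⧸ K)) : Prop where
  normal : N.Normal
  simple : IsSimpleGroup N
  nab : ¬ ∀ a b : N, a * b = b * a
  pK : ¬ p ∣ Nat.card K
  rK : ¬ r ∣ Nat.card K
  sK : ¬ s ∣ Nat.card K
  pN : p ∣ Nat.card N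
  rsN : r ∣ Nat.card N ∨ s ∣ Nat.card N

theorem not_dvd_of_core {G : Type*} [Group G] [Finite G] {p r : ℕ} (hp : p.Prime) (hr : r.Prime)
    (hrp : r ≠ p) (hnr : NonAdj G r p) {K : Subgroup G} [K.Normal] (hpK : ¬ p ∣ Nat.card K)
    (h1 : r ^ (Nat.card G).factorization r ≤ p ^ (Nat.card G).factorization p) : ¬ r ∣ Nat.card K := by
  intro hrK
  have hG0 : Nat.card G ≠ 0 := Nat.card_pos.ne'
  have hK0 : Nat.card K ≠ 0 := Nat.card_pos.ne'
  have hidx : p ^ (Nat.card G).factorization p ∣ K.index := by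
    have h2 : p ^ (Nat.card G).factorization p ∣ Nat.card K * K.index := by
      rw [Subgroup.card_mul_index]; exact Nat.ordProj_dvd _ _
    refine Nat.Coprime.dvd_of_dvd_mul_left ?_ h2
    exact Nat.Coprime.pow_left _ ((Nat.Prime.coprime_iff_not_dvd hp).mpr hpK)
  have h3 := pow_dvd_of_normal hp hr hrp.symm hnr.symm K hidx
  have h4 : (Nat.card K).factorization r ≤ (Nat.card G).factorization r :=
    (Nat.factorization_le_iff_dvd hK0 hG0).mpr (Subgroup.card_subgroup_dvd_card K) r
  have h5 : 1 ≤ (Nat.card K).factorization r := by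
    rw [← Nat.Prime.dvd_iff_one_le_factorization hr hK0]; exact hrK
  have h6 : r ^ (Nat.card K).factorization r ≤ r ^ (Nat.card G).factorization r :=
    Nat.pow_le_pow_right hr.pos h4
  have h7 : r ^ 1 ≤ r ^ (Nat.card K).factorization r := Nat.pow_le_pow_right hr.pos h5
  have h8 := hr.two_le
  rw [pow_one] at h7
  have h9 := Nat.le_of_dvd (by omega) h3
  omega

theorem dvd_quotient {G : Type*} [Group G] [Finite G] {r : ℕ} (hr : r.Prime)
    {K : Subgroup G} [K.Normal] (hrK : ¬ r ∣ Nat.card K) (hrG : r ∣ Nat.card G) :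
    r ∣ Nat.card (G ⧸ K) := by
  have h1 : r ∣ Nat.card K * Nat.card (G ⧸ K) := by
    rw [← Subgroup.index_eq_card, Subgroup.card_mul_index]; exact hrG
  exact ((hr.dvd_mul).mp h1).resolve_left hrK

/-- if `r` does not divide `|N|` then `|N|_p ≡ 1 mod r`. -/
theorem dvd_pow_sub_one {G : Type*} [Group G] [Finite G] {p r : ℕ} (hp : p.Prime) (hr : r.Prime)
    (hrp : r ≠ p) (hnr : NonAdj G r p) (N : Subgroup G) [N.Normal] (hrG : r ∣ Nat.card G)
    (hrN : ¬ r ∣ Nat.card N) : r ∣ p ^ (Nat.card N).factorization p - 1 := by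
  have h1 : r ^ 1 ∣ N.index := by
    rw [pow_one]
    have h2 : r ∣ Nat.card N * N.index := by rw [Subgroup.card_mul_index]; exact hrG
    exact ((hr.dvd_mul).mp h2).resolve_left hrN
  have := pow_dvd_of_normal hr hp hrp hnr N h1
  rwa [pow_one] at this

theorem factorization_quotient {G : Type*} [Group G] [Finite G] {p : ℕ}
    {K : Subgroup G} [K.Normal] (hpK : ¬ p ∣ Nat.card K) :
    (Nat.card (G ⧸ K)).factorization p = (Nat.card G).factorization p := by
  have h1 : Nat.card K * Nat.card (G ⧸ K) = Nat.card G := by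
    rw [← Subgroup.index_eq_card, Subgroup.card_mul_index]
  rw [← h1, Nat.factorization_mul Nat.card_pos.ne' Nat.card_pos.ne', Finsupp.add_apply,
    Nat.factorization_eq_zero_of_not_dvd hpK, zero_add]

/-- **The simple section.** -/
theorem exists_sect {G : Type u} [Group G] [Finite G] {p r s : ℕ} (hp : p.Prime) (hr : r.Prime)
    (hs : s.Prime) (hrp : r ≠ p) (hsp : s ≠ p) (hnr : NonAdj G r p) (hns : NonAdj G s p)
    (hpG : p ∣ Nat.card G) (hrG : r ∣ Nat.card G) (hsG : s ∣ Nat.card G)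
    (h1 : r ^ (Nat.card G).factorization r ≤ p ^ (Nat.card G).factorization p)
    (h2 : s ^ (Nat.card G).factorization s ≤ p ^ (Nat.card G).factorization p)
    (h3 : ∀ j, 0 < j → j ≤ (Nat.card G).factorization p → r ∣ p ^ j - 1 → s ∣ p ^ j - 1 → False) :
    ∃ (K : Subgroup G) (_ : K.Normal) (N : Subgroup (G ⧸ K)), Sect G p r s K N := by
  obtain ⟨K, hKn, hKc, hKm⟩ := exists_core G p
  have hpK : ¬ p ∣ Nat.card K := by
    rwa [Nat.coprime_comm, Nat.Prime.coprime_iff_not_dvd hp] at hKc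
  have hrK := not_dvd_of_core hp hr hrp hnr hpK h1
  have hsK := not_dvd_of_core hp hs hsp hns hpK h2
  have hpQ := dvd_quotient hp hpK hpG
  have hrQ := dvd_quotient hr hrK hrG
  have hsQ := dvd_quotient hs hsK hsG
  have hnt : Nontrivial (G ⧸ K) := by
    rw [← Finite.one_lt_card_iff_nontrivial]
    exact lt_of_lt_of_le hp.one_lt (Nat.le_of_dvd Nat.card_pos hpQ)
  have hnr' := hnr.quotient K
  have hns' := hns.quotient K
  obtain ⟨N, hNn, hN, hmin⟩ := exists_minimal_normal (G ⧸ K)
  have hpN : p ∣ Nat.card N := by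
    by_contra hcon
    apply hN
    apply core_quotient hKc hKm N hNn
    rw [Nat.coprime_comm, Nat.Prime.coprime_iff_not_dvd hp]
    exact hcon
  have hN0 : Nat.card N ≠ 0 := Nat.card_pos.ne'
  have hj1 : 0 < (Nat.card N).factorization p := hp.factorization_pos_of_dvd hN0 hpN
  have hj2 : (Nat.card N).factorization p ≤ (Nat.card G).factorization p := by
    rw [← factorization_quotient hpK]
    exact (Nat.factorization_le_iff_dvd hN0 Nat.card_pos.ne').mpr (Subgroup.card_subgroup_dvd_card N) p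
  have hor : r ∣ Nat.card N ∨ s ∣ Nat.card N := by
    by_contra hcon
    push Not at hcon
    exact h3 _ hj1 hj2 (dvd_pow_sub_one hp hr hrp hnr' N hrQ hcon.1)
      (dvd_pow_sub_one hp hs hsp hns' N hsQ hcon.2)
  refine ⟨K, hKn, N, ?_⟩
  obtain ⟨T, m, _, hT, hm, ⟨e⟩⟩ := Cfsg.Agent.Lib.MinNormal.exists_mulEquiv_pi N hN hmin
  have hcard : Nat.card N = Nat.card T ^ m := by
    rw [Nat.card_congr e.toEquiv, Nat.card_fun]
    simp
  have hTf : Finite T := by
    have hc : Nat.card T ≠ 0 := by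
      intro h0
      rw [h0, zero_pow (by omega)] at hcard
      exact hN0 hcard
    exact Nat.finite_of_card_ne_zero hc
  have hdT : ∀ t, t.Prime → t ∣ Nat.card N → t ∣ Nat.card T := by
    intro t ht h
    rw [hcard] at h
    exact ht.dvd_of_dvd_pow h
  have hpT := hdT p hp hpN
  have hnab : ¬ ∀ a b : N, a * b = b * a := by
    intro hab
    have hcomm0 : ∀ a b : T, a * b = b * a := by
      intro a b
      have h4 := hab (e.symm (fun _ => a)) (e.symm (fun _ => b))
      rw [← map_mul, ← map_mul] at h4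
      exact congrFun (e.symm.injective h4) ⟨0, by omega⟩
    have hprime : (Nat.card T).Prime := by
      let : CommGroup T := { (inferInstance : Group T) with mul_comm := hcomm0 }
      exact IsSimpleGroup.prime_card
    have hpT' := (Nat.prime_dvd_prime_iff_eq hp hprime).mp hpT
    rcases hor with h | h
    · exact hrp (((Nat.prime_dvd_prime_iff_eq hr hprime).mp (hdT r hr h)).trans hpT'.symm)
    · exact hsp (((Nat.prime_dvd_prime_iff_eq hs hprime).mp (hdT s hs h)).trans hpT'.symm)
  have key : ∀ t, t.Prime → t ≠ p → NonAdj (G ⧸ K) t p → t ∣ Nat.card N → m = 1 := by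
    intro t ht htp hnt ht1
    by_contra hm1
    have : Fact p.Prime := ⟨hp⟩
    have : Fact t.Prime := ⟨ht⟩
    obtain ⟨a, ha⟩ := exists_prime_orderOf_dvd_card' t (hdT t ht ht1)
    obtain ⟨b, hb⟩ := exists_prime_orderOf_dvd_card' p hpT
    have h01 : (⟨0, by omega⟩ : Fin m) ≠ ⟨1, by omega⟩ := by
      intro h; exact absurd (congrArg Fin.val h) (by norm_num)
    have hnN : NonAdj N t p := hnt.subgroup N
    have hc : Commute (e.symm (Pi.mulSingle ⟨0, by omega⟩ a)) (e.symm (Pi.mulSingle ⟨1, by omega⟩ b)) :=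
      (Pi.mulSingle_commute (f := fun _ : Fin m => T) h01 a b).map e.symm
    have ho : ∀ (i : Fin m) (x : T), orderOf (e.symm (Pi.mulSingle i x)) = orderOf x := by
      intro i x
      rw [MulEquiv.orderOf_eq]
      exact orderOf_injective (MonoidHom.mulSingle (fun _ : Fin m => T) i)
        (fun x y hxy => Pi.mulSingle_injective (M := fun _ : Fin m => T) i hxy) x
    have h4 := eq_one_of_commute ht hp htp hnN ⟨1, by rw [ho, pow_one, ha]⟩ ⟨1, by rw [ho, pow_one, hb]⟩ hc
      (by
        intro h5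
        have := ho ⟨1, by omega⟩ b
        rw [h5, orderOf_one, hb] at this
        exact hp.one_lt.ne this)
    have := ho ⟨0, by omega⟩ a
    rw [h4, orderOf_one, ha] at this
    exact ht.one_lt.ne this
  have hm1 : m = 1 := by
    rcases hor with h | h
    · exact key r hr hrp hnr' h
    · exact key s hs hsp hns' h
  subst hm1
  have := hT
  exact ⟨hNn, (e.trans (MulEquiv.funUnique (Fin 1) T)).isSimpleGroup, hnab, hpK, hrK, hsK, hpN, hor⟩

end Cfsg.Agent.H363.Master
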